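import Cfsg.Agent.Core.Cores
import Mathlib.GroupTheory.Nilpotent
import Mathlib.Algebra.Polynomial.AlgebraMap
import Mathlib.Data.Nat.Choose.Dvd

/-!
In a constrained group whose Sylow subgroup has class at most `n(p-1)+1`, a non-normal Sylow subgroup
gives a normal subgroup centralizing the `p^n`-th powers of its centre.
-/

set_option autoImplicit false

namespace Cfsg.Agent.FusionZJ

open Cfsg Cfsg.Agent Polynomial
open scoped commutatorElement

/-- A unipotent element of order `p` minus one is annihilated by a power of `p`. -/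
theorem pow_mul_sub_one_eq_zero {R : Type*} [Ring R] {p : ℕ} [hp : Fact p.Prime] (n : ℕ) {x : R}
    (hx : x ^ p = 1) (hc : (x - 1) ^ (n * (p - 1) + 1) = 0) : ((p ^ n : ℕ) : R) * (x - 1) = 0 := by
  set y := x - 1 with hy
  set φ : ℤ[X] →ₐ[ℤ] R := aeval y with hφ
  have h2 := hp.out.two_le
  obtain ⟨r, hr⟩ := exists_add_pow_prime_eq hp.out (1 : ℤ[X]) X
  have hr0 : r.coeff 0 = 1 := by
    have h1 := congrArg (fun q => Polynomial.coeff q 1) hr
    simp only [coeff_one_add_X_pow, Nat.choose_one_right, coeff_add, one_pow, coeff_one,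
      coeff_X_pow, mul_one] at h1
    rw [if_neg (by omega), if_neg (by omega), zero_add, zero_add, mul_assoc, coeff_natCast_mul,
      show r = r from rfl, coeff_X_mul] at h1
    exact mul_left_cancel₀ (by exact_mod_cast hp.out.ne_zero : (p : ℤ) ≠ 0) (by rw [← h1, mul_one])
  obtain ⟨r', hr'⟩ : ∃ r', r = 1 + X * r' := by
    refine ⟨r.divX, ?_⟩
    conv_lhs => rw [← X_mul_divX_add r]
    rw [hr0, C_1, add_comm]
  have hzero : φ ((1 + X) ^ p - 1) = 0 := by
    simp [hφ, hy, hx]
  have key : ∀ k m, 1 ≤ m → n * (p - 1) + 1 ≤ k * (p - 1) + m →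
      φ ((p : ℤ[X]) ^ k * X ^ m) = 0 := by
    intro k
    induction k with
    | zero =>
      intro m _ hm
      rw [pow_zero, one_mul, map_pow, hφ, aeval_X]
      exact pow_eq_zero_of_le (by omega) hc
    | succ k ih =>
      suffices h : ∀ d m, n * (p - 1) + 1 ≤ m + d → 1 ≤ m →
          n * (p - 1) + 1 ≤ (k + 1) * (p - 1) + m → φ ((p : ℤ[X]) ^ (k + 1) * X ^ m) = 0 from
        fun m hm hle => h _ m (Nat.le_add_left _ _) hm hle
      intro d
      induction d with
      | zero =>
        intro m hm _ _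
        rw [map_mul, map_pow φ X, hφ, aeval_X, pow_eq_zero_of_le (by omega) hc, mul_zero]
      | succ d ihd =>
        intro m hmd hm hle
        have he : (p : ℤ[X]) ^ (k + 1) * X ^ m =
            (p : ℤ[X]) ^ k * X ^ (m - 1) * ((1 + X) ^ p - 1) -
              (p : ℤ[X]) ^ k * X ^ (m - 1 + p) -
                (p : ℤ[X]) ^ (k + 1) * X ^ (m + 1) * r' := by
          rw [hr, hr']
          obtain ⟨m', rfl⟩ : ∃ m', m = m' + 1 := ⟨m - 1, by omega⟩
          rw [show m' + 1 - 1 = m' by omega, one_pow]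
          ring
        have hle' : (k + 1) * (p - 1) = k * (p - 1) + (p - 1) := Nat.succ_mul _ _
        rw [he, map_sub, map_sub, map_mul, hzero, mul_zero, ih _ (by omega) (by omega),
          map_mul, ihd (m + 1) (by omega) (by omega) (by omega)]
        simp
  have h := key n 1 le_rfl le_rfl
  simpa [hφ] using h

universe u

variable {p : ℕ} [Fact p.Prime]

/-- In a group of small class an element of order `p` on an abelian normal subgroup fixes the
`p^n`-th powers. -/
theorem small_class_step {G : Type u} [Group G] (A : Subgroup G) [A.Normal]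
    (hab : ∀ a ∈ A, ∀ b ∈ A, a * b = b * a) (P : Subgroup G) (hAP : A ≤ P) {n : ℕ}
    (hcl : P.lowerCentralSeries (n * (p - 1) + 1) = ⊥) {v : G} (hv : v ∈ P)
    (hvp : ∀ a ∈ A, v ^ p * a * (v ^ p)⁻¹ = a) {a : G} (ha : a ∈ A) :
    v * a ^ p ^ n * v⁻¹ = a ^ p ^ n := by
  letI : CommGroup ↥A :=
    { (inferInstance : Group ↥A) with mul_comm := fun a b => Subtype.ext (hab a a.2 b b.2) }
  let Φ : G →* AddMonoid.End (Additive ↥A) :=
    { toFun := fun g => MonoidHom.toAdditive (MulAut.conjNormal g : MulAut ↥A).toMonoidHom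
      map_one' := by rw [map_one]; rfl
      map_mul' := fun g h => by rw [map_mul]; rfl }
  have hΦ : ∀ (g : G) (b : Additive ↥A),
      ((Φ g b).toMul : G) = g * (b.toMul : G) * g⁻¹ := fun g b => MulAut.conjNormal_apply g _
  have hx : Φ v ^ p = 1 := by
    rw [← map_pow]
    ext b
    exact (hΦ _ b).trans (hvp _ b.toMul.2)
  have hmem : ∀ k (b : Additive ↥A),
      ((((Φ v - 1) ^ k) b).toMul : G) ∈ P.lowerCentralSeries k := by
    intro k
    induction k with
    | zero => exact fun b => hAP b.toMul.2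
    | succ k ih =>
      intro b
      have h1 : ((((Φ v - 1) ^ (k + 1)) b).toMul : G) =
          ⁅v, ((((Φ v - 1) ^ k) b).toMul : G)⁆ := by
        rw [pow_succ', commutatorElement_def, ← hΦ]
        exact div_eq_mul_inv _ _
      rw [h1, Subgroup.lowerCentralSeries_succ, ← commutatorElement_inv]
      exact inv_mem (Subgroup.commutator_mem_commutator (ih b) hv)
  have hc : (Φ v - 1) ^ (n * (p - 1) + 1) = 0 := by
    ext b
    have := hmem (n * (p - 1) + 1) b
    rw [hcl, Subgroup.mem_bot] at this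
    exact this
  have h := pow_mul_sub_one_eq_zero n hx hc
  have h1 : p ^ n • (Φ v (Additive.ofMul ⟨a, ha⟩) - Additive.ofMul ⟨a, ha⟩) = 0 := by
    have := DFunLike.congr_fun h (Additive.ofMul ⟨a, ha⟩)
    rw [AddMonoid.End.coe_mul, Function.comp_apply, AddMonoid.End.natCast_apply] at this
    exact this
  have h2 : (v * a * v⁻¹ * a⁻¹) ^ p ^ n = 1 := by
    have := congrArg (fun b : Additive ↥A => (b.toMul : G)) h1
    simp only [toMul_nsmul, toMul_sub, toMul_zero, SubmonoidClass.coe_pow, Subgroup.coe_one,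
      Subgroup.coe_div, hΦ, div_eq_mul_inv, Subgroup.coe_mul, Subgroup.coe_inv] at this
    exact this
  have hcom : Commute (v * a * v⁻¹) a⁻¹ :=
    hab _ ((inferInstance : A.Normal).conj_mem a ha v) _ (A.inv_mem ha)
  rw [hcom.mul_pow, inv_pow, mul_inv_eq_one, conj_pow] at h2
  exact h2

/-- The normal subgroup given by a non-normal Sylow subgroup of small class. -/
theorem exists_normal_fixing_class (G : Type u) [Group G] [Finite G] (P : Sylow p G) {n : ℕ}
    (hC : Subgroup.centralizer ((pCore p G : Subgroup G) : Set G) ≤ pCore p G)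
    (hcl : (P : Subgroup G).lowerCentralSeries (n * (p - 1) + 1) = ⊥)
    (hP : ¬ (P : Subgroup G).Normal) :
    ∃ U : Subgroup G, U.Normal ∧
      (∀ g ∈ U, ∀ z ∈ (P : Subgroup G), (∀ a ∈ P, a * z = z * a) →
        g * z ^ p ^ n * g⁻¹ = z ^ p ^ n) ∧
      ∃ w ∈ (P : Subgroup G), w ∈ U ∧ w ∉ pCore p G := by
  set O := pCore p G with hO
  have hOP : O ≤ P := Core.pCore_le_sylow P
  obtain ⟨u, huP, huO⟩ : ∃ u ∈ (P : Subgroup G), u ∉ O := SetLike.not_le_iff_exists.mp fun h =>
    hP (le_antisymm hOP h ▸ (inferInstance : O.Normal))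
  set A := (Subgroup.center ↥O).map O.subtype with hA
  have hAmem : ∀ a, a ∈ A ↔ a ∈ O ∧ ∀ o ∈ O, o * a = a * o := fun a =>
    ⟨fun ⟨b, hb, e⟩ => e ▸ ⟨b.2, fun o ho =>
      congrArg Subtype.val (Subgroup.mem_center_iff.mp hb ⟨o, ho⟩)⟩,
      fun h => ⟨⟨a, h.1⟩, Subgroup.mem_center_iff.mpr fun o => Subtype.ext (h.2 o o.2), rfl⟩⟩
  have hzA : ∀ z ∈ (P : Subgroup G), (∀ a ∈ P, a * z = z * a) → z ∈ A := fun z _ hzc =>
    (hAmem z).mpr ⟨hC fun o ho => hzc o (hOP ho), fun o ho => hzc o (hOP ho)⟩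
  haveI hAn : A.Normal := by rw [hA]; infer_instance
  set C := Subgroup.centralizer (A : Set G) with hCdef
  haveI hCn : C.Normal := by rw [hCdef]; infer_instance
  by_cases huC : u ∈ C
  · exact ⟨C, hCn, fun g hg z hz hzc => by
      rw [← hg _ (A.pow_mem (hzA z hz hzc) (p ^ n)), mul_inv_cancel_right], u, huP, huC, huO⟩
  classical
  have hex : ∃ i, u ^ p ^ i ∈ C := by
    obtain ⟨i, hi⟩ := P.isPGroup' ⟨u, huP⟩
    exact ⟨i, by rw [show u ^ p ^ i = 1 from congrArg Subtype.val hi]; exact C.one_mem⟩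
  obtain ⟨i, hi⟩ : ∃ i, Nat.find hex = i + 1 := by
    refine ⟨Nat.find hex - 1, (Nat.succ_pred_eq_of_ne_zero fun h => huC ?_).symm⟩
    simpa [h] using Nat.find_spec hex
  set v := u ^ p ^ i with hv
  have hvC : v ∉ C := Nat.find_min hex (by omega)
  have hvp : v ^ p ∈ C := by
    rw [hv, ← pow_mul, ← pow_succ, ← hi]; exact Nat.find_spec hex
  have hstep : ∀ a ∈ A, v * a ^ p ^ n * v⁻¹ = a ^ p ^ n := fun a ha =>
    small_class_step A (fun a ha b hb => (((hAmem a).mp ha).2 b ((hAmem b).mp hb).1).symm) P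
      (fun a ha => hOP ((hAmem a).mp ha).1) hcl (pow_mem huP _)
      (fun a ha => by rw [← hvp a ha, mul_inv_cancel_right]) ha
  refine ⟨Subgroup.normalClosure {v}, Subgroup.normalClosure_normal, fun g hg z hz hzc => ?_, v,
    pow_mem huP _, Subgroup.subset_normalClosure rfl,
    fun hvO => hvC fun a ha => (((hAmem a).mp ha).2 v hvO).symm⟩
  have hU : Subgroup.normalClosure {v} ≤ Subgroup.centralizer {z ^ p ^ n} := by
    refine (Subgroup.closure_le _).mpr fun x hx => ?_
    obtain ⟨w, hw, hconj⟩ := Group.mem_conjugatesOfSet_iff.mp hx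
    rw [Set.mem_singleton_iff] at hw
    subst hw
    obtain ⟨c, rfl⟩ := isConj_iff.mp hconj
    refine Subgroup.mem_centralizer_singleton_iff.mpr ?_
    have h1 := hstep (c⁻¹ * z * c) (by simpa using hAn.conj_mem z (hzA z hz hzc) c⁻¹)
    have h2 : c⁻¹ * z ^ p ^ n * c = (c⁻¹ * z * c) ^ p ^ n := by
      have h := (map_pow (MulAut.conj c⁻¹).toMonoidHom z (p ^ n))
      simpa using h
    rw [← h2] at h1
    calc c * v * c⁻¹ * z ^ p ^ n = c * (v * (c⁻¹ * z ^ p ^ n * c) * v⁻¹) * v * c⁻¹ := by group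
      _ = z ^ p ^ n * (c * v * c⁻¹) := by rw [h1]; group
  rw [Subgroup.mem_centralizer_singleton_iff.mp (hU hg), mul_inv_cancel_right]

end Cfsg.Agent.FusionZJ
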